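import Cfsg.Agent.Offender.Basic
import Mathlib.GroupTheory.PGroup

/-!
Offenders in a group of automorphisms of an elementary abelian 2-group whose 2-subgroups are abelian
and act quadratically: if no involution inverts an element of order three, an offender commutes with
all its conjugates.
-/

set_option autoImplicit false

namespace CfsgLib.AbelianOffender

open CfsgLib.Offender (fixedSub mem_fixedSub fixedSub_mono)

variable {X : Type*} [Group X] [Finite X] {V : Type*} [CommGroup V] [Finite V]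

/-- The hypotheses on the acting group. -/
structure Quad (φ : X →* MulAut V) : Prop where
  inj : Function.Injective φ
  exp : ∀ v : V, v * v = 1
  comm : ∀ T : Subgroup X, IsPGroup 2 T → ∀ a ∈ T, ∀ b ∈ T, a * b = b * a
  quad : ∀ T : Subgroup X, IsPGroup 2 T → ∀ a ∈ T, ∀ b ∈ T, ∀ v : V,
    φ a (v * φ b v) = v * φ b v
  no3 : ∀ t y : X, t * t = 1 → y ^ 3 = 1 → t * y * t = y⁻¹ → y = 1

/-- An offender: elementary, and no subgroup does better. -/
structure Off (φ : X →* MulAut V) (A : Subgroup X) : Prop where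
  sq : ∀ a ∈ A, a * a = 1
  max : ∀ B ≤ A, Nat.card B * Nat.card (fixedSub φ B) ≤ Nat.card A * Nat.card (fixedSub φ A)

/-- Elementwise commuting subgroups. -/
def Cm (A B : Subgroup X) : Prop := ∀ a ∈ A, ∀ b ∈ B, a * b = b * a

/-- The conjugate `g A g⁻¹`. -/
def cj (g : X) (A : Subgroup X) : Subgroup X := A.map (MulAut.conj g).toMonoidHom

omit [Finite X] in
theorem mem_cj {g x : X} {A : Subgroup X} : x ∈ cj g A ↔ g⁻¹ * x * g ∈ A := by
  constructor
  · rintro ⟨a, ha, rfl⟩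
    simpa [mul_assoc] using ha
  · intro h
    exact ⟨_, h, by simp [mul_assoc]⟩

omit [Finite X] in
theorem conj_mem_cj (g : X) {A : Subgroup X} {a : X} (ha : a ∈ A) : g * a * g⁻¹ ∈ cj g A :=
  ⟨a, ha, rfl⟩

omit [Finite X] in
theorem cj_cj (g h : X) (A : Subgroup X) : cj g (cj h A) = cj (g * h) A := by
  ext x
  simp only [mem_cj, mul_inv_rev, mul_assoc]

omit [Finite X] in
theorem cj_one (A : Subgroup X) : cj 1 A = A := by ext x; simp [mem_cj]

omit [Finite X] in
theorem cj_eq_self {g : X} {A : Subgroup X} (h : ∀ a ∈ A, g * a = a * g) : cj g A = A := by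
  ext x
  rw [mem_cj]
  constructor
  · intro hx
    have h1 := h _ hx
    have : x = g⁻¹ * x * g := by
      calc x = g * (g⁻¹ * x * g) * g⁻¹ := by group
        _ = g⁻¹ * x * g := by rw [h1]; group
    rwa [this]
  · intro hx
    rwa [mul_assoc, ← h x hx, inv_mul_cancel_left]

omit [Finite X] in
theorem Cm.symm {A B : Subgroup X} (h : Cm A B) : Cm B A := fun b hb a ha => (h a ha b hb).symm

omit [Finite X] in
theorem cm_cj {g : X} {A B : Subgroup X} (h : Cm A B) : Cm (cj g A) (cj g B) := by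
  rintro _ ⟨a, ha, rfl⟩ _ ⟨b, hb, rfl⟩
  rw [← map_mul, ← map_mul, h a ha b hb]

omit [Finite X] [Finite V] in
theorem fixedSub_sup (φ : X →* MulAut V) (A B : Subgroup X) :
    fixedSub φ (A ⊔ B) = fixedSub φ A ⊓ fixedSub φ B := by
  refine le_antisymm (le_inf (fixedSub_mono φ le_sup_left) (fixedSub_mono φ le_sup_right)) ?_
  intro v hv a ha
  obtain ⟨hA, hB⟩ := Subgroup.mem_inf.mp hv
  rw [Subgroup.sup_eq_closure] at ha
  induction ha using Subgroup.closure_induction with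
  | mem a ha => rcases ha with ha | ha; exacts [hA a ha, hB a ha]
  | one => simp
  | mul a b _ _ ha hb => rw [map_mul, MulAut.mul_apply, hb, ha]
  | inv a _ ha =>
    apply (φ a).injective
    rw [map_inv, MulAut.apply_inv_self, ha]

omit [Finite X] [Finite V] in
theorem mem_fixedSub_cj (φ : X →* MulAut V) {g : X} {A : Subgroup X} {v : V}
    (hv : v ∈ fixedSub φ A) : φ g v ∈ fixedSub φ (cj g A) := by
  rintro _ ⟨a, ha, rfl⟩
  show φ (g * a * g⁻¹) (φ g v) = φ g v
  rw [← MulAut.mul_apply, ← map_mul, inv_mul_cancel_right, map_mul, MulAut.mul_apply, hv a ha]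

omit [Finite X] [Finite V] in
theorem card_fixedSub_cj (φ : X →* MulAut V) (g : X) (A : Subgroup X) :
    Nat.card (fixedSub φ (cj g A)) = Nat.card (fixedSub φ A) := by
  refine Nat.card_congr
    { toFun := fun v => ⟨φ g⁻¹ v, ?_⟩
      invFun := fun v => ⟨φ g v, mem_fixedSub_cj φ v.2⟩
      left_inv := fun v => Subtype.ext (by simp [map_inv])
      right_inv := fun v => Subtype.ext (by simp [map_inv]) }
  have h := mem_fixedSub_cj φ (g := g⁻¹) v.2
  rwa [cj_cj, inv_mul_cancel, cj_one] at h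

omit [Finite X] in
theorem card_cj (g : X) (A : Subgroup X) : Nat.card (cj g A) = Nat.card A :=
  Subgroup.card_map_of_injective (MulAut.conj g).injective

theorem Off.cj {φ : X →* MulAut V} {A : Subgroup X} (h : Off φ A) (g : X) :
    Off φ (AbelianOffender.cj g A) := by
  refine ⟨?_, fun B hB => ?_⟩
  · rintro _ ⟨a, ha, rfl⟩
    rw [← map_mul, h.sq a ha, map_one]
  · have hle : AbelianOffender.cj g⁻¹ B ≤ A := by
      intro x hx
      rw [mem_cj, inv_inv] at hx
      have := mem_cj.mp (hB hx)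
      simpa [mul_assoc] using this
    have := h.max _ hle
    rw [card_cj, card_fixedSub_cj] at this
    rwa [card_cj, card_fixedSub_cj]

theorem Off.isPGroup {φ : X →* MulAut V} {A : Subgroup X} (h : Off φ A) : IsPGroup 2 A :=
  fun a => ⟨1, Subtype.ext (by
    show (a : X) ^ 2 ^ 1 = 1
    rw [pow_one, pow_two, h.sq a a.2])⟩

/-- Pairwise commuting conjugates inside a subgroup containing `A` and a further offender: the two
offenders commute as soon as the conjugates of `A` under their join commute. -/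
theorem cm_of_conj_cm {φ : X →* MulAut V} (hq : Quad φ) {A A' : Subgroup X} (hA : Off φ A)
    (hA' : Off φ A') (h : ∀ g ∈ A ⊔ A', Cm A (cj g A)) : Cm A A' := by
  set Y := A ⊔ A' with hY
  let S : Set X := {x | ∃ y ∈ Y, ∃ a ∈ A, x = y * a * y⁻¹}
  set N := Subgroup.closure S with hN
  have hcomm : ∀ x ∈ S, ∀ x' ∈ S, x * x' = x' * x := by
    rintro _ ⟨y, hy, a, ha, rfl⟩ _ ⟨y', hy', b, hb, rfl⟩
    have := h _ (mul_mem (inv_mem hy) hy') a ha _ (conj_mem_cj _ hb)
    calc y * a * y⁻¹ * (y' * b * y'⁻¹) = y * (a * ((y⁻¹ * y') * b * (y⁻¹ * y')⁻¹)) * y⁻¹ := by group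
      _ = y * (((y⁻¹ * y') * b * (y⁻¹ * y')⁻¹) * a) * y⁻¹ := by rw [this]
      _ = _ := by group
  have hNS : N ≤ Subgroup.centralizer S :=
    (Subgroup.closure_le _).mpr fun x hx => Subgroup.mem_centralizer_iff.mpr fun y hy => hcomm y hy x hx
  have hSN : ∀ x ∈ N, ∀ y ∈ N, x * y = y * x := by
    have : N ≤ Subgroup.centralizer (N : Set X) := by
      rw [hN, Subgroup.centralizer_closure]; exact hNS
    exact fun x hx y hy => Subgroup.mem_centralizer_iff.mp (this hy) x hx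
  have hN2 : IsPGroup 2 N := by
    rintro ⟨x, hx⟩
    refine ⟨1, Subtype.ext ?_⟩
    show x ^ 2 ^ 1 = 1
    rw [pow_one]
    induction hx using Subgroup.closure_induction with
    | mem x hx =>
      obtain ⟨y, -, a, ha, rfl⟩ := hx
      rw [conj_pow, pow_two, hA.sq a ha, mul_one, mul_inv_cancel]
    | one => exact one_pow 2
    | mul x y hx' hy' hx hy => rw [Commute.mul_pow (hSN x hx' y hy'), hx, hy, one_mul]
    | inv x _ hx => rw [inv_pow, hx, inv_one]
  have hnorm : A' ≤ Subgroup.normalizer (N : Set X) := by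
    intro g hg
    have key : ∀ k ∈ Y, N ≤ N.comap (MulAut.conj k).toMonoidHom := fun k hk =>
      (Subgroup.closure_le _).mpr fun x ⟨y, hy, a, ha, hx⟩ =>
        Subgroup.subset_closure ⟨k * y, mul_mem hk hy, a, ha, by
          show k * x * k⁻¹ = _
          rw [hx]; group⟩
    rw [Subgroup.mem_normalizer_iff]
    intro x
    refine ⟨fun hx => key g (Subgroup.mem_sup_right hg) hx, fun hx => ?_⟩
    have h2 : g⁻¹ * (g * x * g⁻¹) * g⁻¹⁻¹ ∈ N := key g⁻¹ (inv_mem (Subgroup.mem_sup_right hg)) hx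
    simpa [mul_assoc] using h2
  have hT := IsPGroup.to_sup_of_normal_right' hA'.isPGroup hN2 hnorm
  exact fun a ha b hb => hq.comm _ hT a
    (Subgroup.mem_sup_right (Subgroup.subset_closure ⟨1, one_mem _, a, ha, by simp⟩)) b
    (Subgroup.mem_sup_left hb)

variable {φ : X →* MulAut V}

omit [Finite X] in
/-- The covering by one fixed space and the translates of another. -/
theorem cover {A : Subgroup X} {W U Z : Subgroup V} (hexp : ∀ v : V, v * v = 1) (q : ℕ)
    (rep : Fin q → X) (hrep : ∀ i, rep i ∈ A) (hZW : Z ≤ W) (hZU : Z ≤ U)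
    (hcard : Nat.card U = Nat.card W) (hWU : ∀ v ∈ W, v ∈ U → v ∈ Z)
    (hWUa : ∀ i, ∀ u ∈ U, φ (rep i) u ∈ W → u ∈ Z)
    (hUU : ∀ i j, ∀ u ∈ U, ∀ u' ∈ U, φ (rep i) u = φ (rep j) u' → u ∉ Z → i = j)
    (hquad : ∀ a ∈ A, ∀ u, u * φ a u ∈ W)
    (hfix : ∀ i, ∀ u ∈ Z, φ (rep i) u = u) (hne : Z ≠ W)
    (hbound : Nat.card W ≤ q * Nat.card Z) :
    ∀ v ∈ W ⊔ U, v ∉ Z → v ∈ W ∨ ∃ a ∈ A, ∃ u ∈ U, v = φ a u := by
  classical
  have hUM : ∀ i, ∀ u ∈ U, φ (rep i) u ∈ W ⊔ U := by
    intro i u hu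
    have : φ (rep i) u = u * (u * φ (rep i) u) := by rw [← mul_assoc, hexp, one_mul]
    rw [this]
    exact mul_mem (Subgroup.mem_sup_right hu) (Subgroup.mem_sup_left (hquad _ (hrep i) u))
  let f : ↥((W : Set V) \ Z) ⊕ (Fin q × ↥((U : Set V) \ Z)) → ↥(((W ⊔ U : Subgroup V) : Set V) \ Z) :=
    Sum.elim (fun v => ⟨v.1, Subgroup.mem_sup_left v.2.1, v.2.2⟩)
      (fun iu => ⟨φ (rep iu.1) iu.2.1, hUM _ _ iu.2.2.1, fun hz => iu.2.2.2 (by
        have h1 := hfix iu.1 _ hz
        rwa [(φ (rep iu.1)).injective h1] at hz)⟩)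
  have hf : Function.Injective f := by
    rintro (v | ⟨i, u⟩) (v' | ⟨j, u'⟩) h
    · exact congrArg Sum.inl (Subtype.ext (congrArg Subtype.val h :))
    · have h' : (v : V) = φ (rep j) u' := congrArg Subtype.val h
      exact absurd (hWUa j _ u'.2.1 (h' ▸ v.2.1)) u'.2.2
    · have h' : φ (rep i) u = (v' : V) := congrArg Subtype.val h
      exact absurd (hWUa i _ u.2.1 (h'.symm ▸ v'.2.1)) u.2.2
    · have h' : φ (rep i) u = φ (rep j) u' := congrArg Subtype.val h
      obtain rfl := hUU i j _ u.2.1 _ u'.2.1 h' u.2.2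
      rw [show u = u' from Subtype.ext ((φ (rep i)).injective h')]
  have hsup : Nat.card ↥(W ⊔ U) * Nat.card Z = Nat.card W * Nat.card U := by
    have hinf : W ⊓ U = Z := le_antisymm (fun v hv => hWU v hv.1 hv.2) (le_inf hZW hZU)
    have h1 := Subgroup.relIndex_mul_relIndex ⊥ U (W ⊔ U) bot_le le_sup_right
    have h2 := Subgroup.relIndex_mul_relIndex ⊥ (U ⊓ W) W bot_le inf_le_right
    rw [Subgroup.relIndex_bot_left, Subgroup.relIndex_bot_left, Subgroup.relIndex_sup_right] at h1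
    rw [Subgroup.relIndex_bot_left, Subgroup.relIndex_bot_left, Subgroup.inf_relIndex_right,
      inf_comm, hinf] at h2
    rw [← h1, ← h2]; ring
  have hd : ∀ {K : Subgroup V}, Z ≤ K → Nat.card ↥((K : Set V) \ Z) = Nat.card K - Nat.card Z := by
    intro K hK
    rw [Nat.card_coe_set_eq, Set.ncard_sdiff hK, ← Nat.card_coe_set_eq, ← Nat.card_coe_set_eq]
    rfl
  have hle : Nat.card Z < Nat.card W :=
    lt_of_le_of_ne (Subgroup.card_le_of_le hZW) fun h => hne (Subgroup.eq_of_le_of_card_ge hZW h.ge)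
  have hcle := Nat.card_le_card_of_injective f hf
  rw [Nat.card_sum, Nat.card_prod, Nat.card_fin, hd hZW, hd hZU, hd (hZW.trans le_sup_left), hcard] at hcle
  rw [hcard] at hsup
  set w := Nat.card W
  set z := Nat.card Z
  set m := Nat.card ↥(W ⊔ U)
  have hz : 0 < z := Nat.card_pos
  obtain ⟨d, hwd⟩ : ∃ d, w = z + d := ⟨w - z, by omega⟩
  have hd0 : 0 < d := by omega
  have hmz : z ≤ m := Subgroup.card_le_of_le (hZW.trans le_sup_left)
  obtain ⟨e, hme⟩ : ∃ e, m = z + e := ⟨m - z, by omega⟩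
  rw [hwd, hme, Nat.add_sub_cancel_left, Nat.add_sub_cancel_left] at hcle
  have heq : d + q * d = e := by
    rw [hwd] at hbound hsup
    rw [hme] at hsup
    nlinarith
  have hbij : Function.Bijective f := (Nat.bijective_iff_injective_and_card f).mpr ⟨hf, by
    rw [Nat.card_sum, Nat.card_prod, Nat.card_fin, hd hZW, hd hZU, hd (hZW.trans le_sup_left), hcard]
    show w - z + q * (w - z) = m - z
    rw [hwd, hme, Nat.add_sub_cancel_left, Nat.add_sub_cancel_left]
    exact heq⟩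
  intro v hv hvZ
  obtain ⟨x, hx⟩ := hbij.2 ⟨v, hv, hvZ⟩
  rcases x with x | ⟨i, u⟩
  · refine Or.inl ?_
    have hxv : (x : V) = v := congrArg Subtype.val hx
    rw [← hxv]
    exact x.2.1
  · exact Or.inr ⟨rep i, hrep i, u, u.2.1, (congrArg Subtype.val hx).symm⟩

/-- The covering for a generating pair of offenders all of whose conjugate pairs generate. -/
theorem cover_pair (hq : Quad φ) {Y A A' : Subgroup X} (hA : Off φ A) (hA' : Off φ A') (g : X)
    (hgY : g ∈ Y) (hg : A' = cj g A) (hAA' : A ⊔ A' = Y)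
    (hgen : ∀ g₁ ∈ Y, ∀ g₂ ∈ Y, ¬ Cm (cj g₁ A) (cj g₂ A) → cj g₁ A ⊔ cj g₂ A = Y)
    (hnc : ¬ Cm A A') :
    fixedSub φ A ≠ fixedSub φ Y ∧ (∀ a ∈ A, ∀ u ∈ fixedSub φ A', φ a u ∈ fixedSub φ A' → φ a u = u) ∧
    ∀ v ∈ fixedSub φ A ⊔ fixedSub φ A', v ∉ fixedSub φ Y →
      v ∈ fixedSub φ A ∨ ∃ a ∈ A, ∃ u ∈ fixedSub φ A', v = φ a u := by
  set W := fixedSub φ A with hW
  set U := fixedSub φ A' with hU
  set Z := fixedSub φ Y with hZ
  set B := A ⊓ Subgroup.centralizer (Y : Set X) with hB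
  have hAY : A ≤ Y := hAA' ▸ le_sup_left
  have hA'Y : A' ≤ Y := hAA' ▸ le_sup_right
  have hZW : Z ≤ W := fixedSub_mono φ hAY
  have hZU : Z ≤ U := fixedSub_mono φ hA'Y
  have hquad : ∀ a ∈ A, ∀ u, u * φ a u ∈ W := fun a ha u b hb => hq.quad A hA.isPGroup b hb a ha u
  have hcardU : Nat.card U = Nat.card W := by rw [hU, hg, card_fixedSub_cj]
  have hinf : W ⊓ U = Z := by rw [hW, hU, hZ, ← fixedSub_sup, hAA']
  have hne : Z ≠ W := by
    intro h
    have hUW : U = Z := (Subgroup.eq_of_le_of_card_ge hZU (by rw [hcardU, ← h])).symm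
    apply hnc
    intro a ha b hb
    apply hq.inj
    refine MulEquiv.ext fun v => ?_
    rw [map_mul, map_mul, MulAut.mul_apply, MulAut.mul_apply]
    have hda : v * φ a v ∈ Z := h ▸ hquad a ha v
    have hdb : v * φ b v ∈ Z := hUW ▸ fun c hc => hq.quad A' hA'.isPGroup c hc b hb v
    have ea : φ a v = v * (v * φ a v) := by rw [← mul_assoc, hq.exp, one_mul]
    have eb : φ b v = v * (v * φ b v) := by rw [← mul_assoc, hq.exp, one_mul]
    conv_lhs => rw [eb, map_mul, hdb a (hAY ha), ea]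
    conv_rhs => rw [ea, map_mul, hda b (hA'Y hb), eb]
    rw [mul_assoc, mul_comm (v * φ a v), ← mul_assoc]
  -- the elements of `A` outside `B` move `A'` to a noncommuting conjugate
  have hmove : ∀ a ∈ A, a ∉ Subgroup.centralizer (Y : Set X) → ¬ Cm A' (cj a A') := by
    intro a ha hac hcm
    apply hac
    have hoa := hA'.cj a
    have hM : IsPGroup 2 ↥(A' ⊔ cj a A') :=
      IsPGroup.to_sup_of_normal_right' hA'.isPGroup hoa.isPGroup fun x hx =>
        Subgroup.mem_normalizer_iff.mpr fun y => by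
          constructor
          · intro hy
            rwa [hcm x hx y hy, mul_inv_cancel_right]
          · intro hy
            have := hcm x hx _ hy
            have e : x * y * x⁻¹ = y := by
              calc x * y * x⁻¹ = x⁻¹ * (x * (x * y * x⁻¹)) := by group
                _ = x⁻¹ * ((x * y * x⁻¹) * x) := by rw [this]
                _ = y := by group
            rwa [e] at hy
    have ha2 : a⁻¹ = a := inv_eq_of_mul_eq_one_right (hA.sq a ha)
    have hcjj : cj a (cj a A') = A' := by rw [cj_cj, hA.sq a ha, cj_one]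
    have hnorm : Subgroup.zpowers a ≤ Subgroup.normalizer ((A' ⊔ cj a A' : Subgroup X) : Set X) := by
      rw [Subgroup.zpowers_le, Subgroup.mem_normalizer_iff_map_conj_eq]
      show cj a (A' ⊔ cj a A') = A' ⊔ cj a A'
      rw [cj, Subgroup.map_sup]
      show cj a A' ⊔ cj a (cj a A') = _
      rw [hcjj, sup_comm]
    have hzp : IsPGroup 2 (Subgroup.zpowers a) := hA.isPGroup.to_le (Subgroup.zpowers_le.mpr ha)
    have hT := IsPGroup.to_sup_of_normal_right' hzp hM hnorm
    have hle : Y ≤ Subgroup.centralizer ({a} : Set X) := by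
      rw [← hAA']
      refine sup_le (fun b hb => ?_) (fun b hb => ?_) <;> rw [Subgroup.mem_centralizer_singleton_iff]
      · exact hq.comm A hA.isPGroup b hb a ha
      · exact hq.comm _ hT b (Subgroup.mem_sup_right (Subgroup.mem_sup_left hb)) a
          (Subgroup.mem_sup_left (Subgroup.mem_zpowers a))
    exact Subgroup.mem_centralizer_iff.mpr fun y hy => Subgroup.mem_centralizer_singleton_iff.mp (hle hy)
  have hBA : B ≤ A := inf_le_left
  have hBA' : B ≤ A' := by
    intro b hb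
    have hbc : g * b = b * g := Subgroup.mem_centralizer_iff.mp hb.2 g hgY
    rw [hg, mem_cj]
    rw [mul_assoc, ← hbc, inv_mul_cancel_left]
    exact hb.1
  have hWB : W ≤ fixedSub φ B := fixedSub_mono φ hBA
  have hUB : U ≤ fixedSub φ B := fixedSub_mono φ hBA'
  set q := Nat.card (↥A ⧸ B.subgroupOf A) with hqdef
  let eQ : Fin q ≃ ↥A ⧸ B.subgroupOf A := (Finite.equivFin _).symm
  let rep : Fin q → X := fun i => ((Quotient.out (eQ i) : ↥A) : X)
  have hrep : ∀ i, rep i ∈ A := fun i => (Quotient.out (eQ i) : ↥A).2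
  have hAcard : Nat.card A = q * Nat.card B := by
    rw [hqdef, ← Nat.card_congr (Subgroup.subgroupOfEquivOfLe hBA).toEquiv]
    exact Subgroup.card_eq_card_quotient_mul_card_subgroup _
  have hbound : Nat.card W ≤ q * Nat.card Z := by
    have h1 := hA.max B hBA
    rw [hAcard, mul_comm q, mul_assoc] at h1
    have h2 : Nat.card (fixedSub φ B) ≤ q * Nat.card W := Nat.le_of_mul_le_mul_left h1 Nat.card_pos
    have h3 : Nat.card ↥(W ⊔ U) * Nat.card Z = Nat.card W * Nat.card U := by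
      have e1 := Subgroup.relIndex_mul_relIndex ⊥ U (W ⊔ U) bot_le le_sup_right
      have e2 := Subgroup.relIndex_mul_relIndex ⊥ (U ⊓ W) W bot_le inf_le_right
      rw [Subgroup.relIndex_bot_left, Subgroup.relIndex_bot_left, Subgroup.relIndex_sup_right] at e1
      rw [Subgroup.relIndex_bot_left, Subgroup.relIndex_bot_left, Subgroup.inf_relIndex_right,
        inf_comm, hinf] at e2
      rw [← e1, ← e2]; ring
    rw [hcardU] at h3
    have h4 : Nat.card W * Nat.card W ≤ (q * Nat.card W) * Nat.card Z := by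
      rw [← h3]
      exact Nat.mul_le_mul_right _ ((Subgroup.card_le_of_le (sup_le hWB hUB)).trans h2)
    refine Nat.le_of_mul_le_mul_left ?_ (Nat.card_pos (α := W))
    calc Nat.card W * Nat.card W ≤ (q * Nat.card W) * Nat.card Z := h4
      _ = _ := by ring
  have hfix : ∀ i, ∀ u ∈ Z, φ (rep i) u = u := fun i u hu => hu _ (hAY (hrep i))
  refine ⟨fun h => hne h.symm, fun a ha u hu hau => ?_, cover hq.exp q rep hrep hZW hZU hcardU
    (fun v hv hv' => hinf.le ⟨hv, hv'⟩) (fun i u hu hW' => ?_) (fun i j u hu u' hu' he hnz => ?_)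
    hquad hfix hne hbound⟩
  · by_cases hac : a ∈ Subgroup.centralizer (Y : Set X)
    · exact hu a (hBA' ⟨ha, hac⟩)
    have hnc' := hmove a ha hac
    have htop : A' ⊔ cj a A' = Y := by
      rw [hg] at hnc' ⊢
      rw [cj_cj] at hnc' ⊢
      exact hgen g hgY _ (mul_mem (hAY ha) hgY) hnc'
    have hz : φ a u ∈ Z := by
      rw [hZ, ← htop, fixedSub_sup]
      exact ⟨hau, mem_fixedSub_cj φ hu⟩
    have h1 := hz a (hAY ha)
    rw [← MulAut.mul_apply, ← map_mul, hA.sq a ha, map_one, MulAut.one_apply] at h1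
    exact h1.symm
  · have h1 : φ (rep i) (φ (rep i) u) = φ (rep i) u := hW' _ (hrep i)
    exact hinf.le ⟨(φ (rep i)).injective h1 ▸ hW', hu⟩
  · by_contra hij
    have hd : (rep i)⁻¹ * rep j ∈ A := mul_mem (inv_mem (hrep i)) (hrep j)
    have hnc' : ¬ Cm A' (cj ((rep i)⁻¹ * rep j) A') := by
      refine hmove _ hd fun hc => hij ?_
      apply eQ.injective
      rw [← Quotient.out_eq (eQ i), ← Quotient.out_eq (eQ j)]
      exact QuotientGroup.eq.mpr ⟨hd, hc⟩
    have hdY : (rep i)⁻¹ * rep j * g ∈ Y := mul_mem (hAY hd) hgY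
    have hj : cj ((rep i)⁻¹ * rep j) A' = cj ((rep i)⁻¹ * rep j * g) A := by rw [hg, cj_cj]
    have htop : A' ⊔ cj ((rep i)⁻¹ * rep j) A' = Y := by
      rw [hj]; rw [hj] at hnc'
      rw [hg] at hnc' ⊢
      exact hgen g hgY _ hdY hnc'
    apply hnz
    rw [hZ, ← htop, fixedSub_sup]
    refine ⟨hu, ?_⟩
    have h2 := mem_fixedSub_cj φ (g := (rep i)⁻¹ * rep j) hu'
    rw [map_mul, MulAut.mul_apply, ← he, map_inv, MulAut.inv_apply_self] at h2
    exact h2

/-- The main theorem. -/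
theorem commute_conj (hq : Quad φ) : ∀ Y : Subgroup X, ∀ A ≤ Y, Off φ A → ∀ g ∈ Y, Cm A (cj g A) := by
  intro Y
  induction Y using WellFoundedLT.induction with
  | ind Y ih =>
  intro A hAY hA g hgY
  by_contra hnc
  have hcjY : ∀ h ∈ Y, cj h A ≤ Y := by
    rintro h hh _ ⟨a, ha, rfl⟩
    exact mul_mem (mul_mem hh (hAY ha)) (inv_mem hh)
  have hgen : ∀ g₁ ∈ Y, ∀ g₂ ∈ Y, ¬ Cm (cj g₁ A) (cj g₂ A) → cj g₁ A ⊔ cj g₂ A = Y := by
    intro g₁ h₁ g₂ h₂ hn
    by_contra hne
    exact hn (cm_of_conj_cm hq (hA.cj g₁) (hA.cj g₂) fun k hk =>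
      ih _ (lt_of_le_of_ne (sup_le (hcjY g₁ h₁) (hcjY g₂ h₂)) hne) _ le_sup_left (hA.cj g₁) k hk)
  set A' := cj g A with hA'def
  have hA' : Off φ A' := hA.cj g
  have hAA' : A ⊔ A' = Y := by
    have := hgen 1 (one_mem _) g hgY (by rwa [cj_one])
    rwa [cj_one] at this
  obtain ⟨hWZ, hfixU, hcov⟩ := cover_pair hq hA hA' g hgY rfl hAA' hgen hnc
  have hgen' : ∀ g₁ ∈ Y, ∀ g₂ ∈ Y, ¬ Cm (cj g₁ A') (cj g₂ A') → cj g₁ A' ⊔ cj g₂ A' = Y := by
    intro g₁ h₁ g₂ h₂ hn
    rw [hA'def, cj_cj, cj_cj] at hn ⊢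
    exact hgen _ (mul_mem h₁ hgY) _ (mul_mem h₂ hgY) hn
  obtain ⟨hUZ, -, hcov'⟩ := cover_pair hq hA' hA g⁻¹ (inv_mem hgY)
    (by rw [hA'def, cj_cj, inv_mul_cancel, cj_one]) (by rw [sup_comm, hAA']) hgen'
    (fun h => hnc h.symm)
  set W := fixedSub φ A with hW
  set U := fixedSub φ A' with hU
  set Z := fixedSub φ Y with hZ
  have hA'Y : A' ≤ Y := hcjY g hgY
  have hinf : W ⊓ U = Z := by rw [hW, hU, hZ, ← fixedSub_sup, hAA']
  have hquad : ∀ a ∈ A, ∀ u, u * φ a u ∈ W := fun a ha u b hb => hq.quad A hA.isPGroup b hb a ha u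
  have hquad' : ∀ b ∈ A', ∀ u, u * φ b u ∈ U := fun a ha u b hb => hq.quad A' hA'.isPGroup b hb a ha u
  -- some `a` moves some `u ∈ U`
  obtain ⟨a, ha, u, hu, hmove⟩ : ∃ a ∈ A, ∃ u ∈ U, φ a u ≠ u := by
    by_contra hcon
    push Not at hcon
    exact hUZ (le_antisymm (fun u hu => hinf.le ⟨fun a ha => hcon a ha u hu, hu⟩)
      (fixedSub_mono φ hA'Y))
  obtain ⟨α, hα⟩ : ∃ α, α = u * φ a u := ⟨_, rfl⟩
  have hαW : α ∈ W := hα ▸ hquad a ha u
  have eau : φ a u = u * α := by rw [hα, ← mul_assoc, hq.exp, one_mul]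
  have haa : φ a (φ a u) = u := by rw [← MulAut.mul_apply, ← map_mul, hA.sq a ha, map_one]; rfl
  have hauU : φ a u ∉ U := fun h => hmove (hfixU a ha u hu h)
  have hαZ : α ∉ Z := fun h => hauU (eau ▸ mul_mem hu (fixedSub_mono φ hA'Y h))
  have hvM : φ a u ∈ U ⊔ W := eau ▸ mul_mem (Subgroup.mem_sup_left hu) (Subgroup.mem_sup_right hαW)
  obtain ⟨b, hb, w', hw', hvw⟩ : ∃ b ∈ A', ∃ w ∈ W, φ a u = φ b w :=
    (hcov' _ hvM fun h => hauU (fixedSub_mono φ hA'Y h)).resolve_left hauU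
  obtain ⟨β, hβ⟩ : ∃ β, β = w' * φ b w' := ⟨_, rfl⟩
  have ebw : φ b w' = w' * β := by rw [hβ, ← mul_assoc, hq.exp, one_mul]
  have hmain : u * α = w' * β := by rw [← eau, ← ebw, hvw]
  obtain ⟨δ, hδ⟩ : ∃ δ, δ = w' * α := ⟨_, rfl⟩
  have hw'δ : w' = δ * α := by rw [hδ, mul_assoc, hq.exp, mul_one]
  have hβeq : β = u * δ := by
    calc β = w' * (w' * β) := by rw [← mul_assoc, hq.exp, one_mul]
      _ = w' * (u * α) := by rw [hmain]
      _ = u * δ := by rw [hδ, mul_left_comm]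
  have hδZ : δ ∈ Z := hinf.le ⟨hδ ▸ mul_mem hw' hαW, by
    have : δ = u * β := by rw [hβeq, ← mul_assoc, hq.exp, one_mul]
    rw [this, hβ]
    exact mul_mem hu (hquad' b hb w')⟩
  have hbα : φ b α = α * (u * δ) := by
    have h1 : δ * φ b α = δ * (α * (u * δ)) := by
      have h2 : φ b w' = δ * φ b α := by rw [hw'δ, map_mul, hδZ b (hA'Y hb)]
      rw [← h2, ebw, hβeq, hw'δ, mul_assoc]
    exact mul_left_cancel h1
  obtain ⟨y, hy⟩ : ∃ y, y = a * b := ⟨_, rfl⟩
  have hyu : φ y u = u * α := by rw [hy, map_mul, MulAut.mul_apply, hu b hb, eau]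
  have hyδ : φ y δ = δ := hδZ y (hy ▸ mul_mem (hAY ha) (hA'Y hb))
  have hyα : φ y α = u * δ := by
    rw [hy, map_mul, MulAut.mul_apply, hbα, map_mul, map_mul, hαW a ha, eau, hδZ a (hAY ha),
      ← mul_assoc, mul_comm u α, ← mul_assoc, hq.exp, one_mul]
  have hy2 : φ y (φ y u) = α * δ := by
    rw [hyu, map_mul, hyu, hyα, ← mul_assoc, mul_comm (u * α), ← mul_assoc, hq.exp, one_mul]
  have hy3 : φ (y ^ 3) u = u := by
    rw [pow_succ, pow_two, map_mul, map_mul, MulAut.mul_apply, MulAut.mul_apply]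
    rw [hy2, map_mul, hyα, hyδ, mul_assoc, hq.exp, mul_one]
  have hyne : φ y u ≠ u := fun h => hαZ (by
    rw [hyu, mul_eq_left] at h
    rw [h]; exact one_mem _)
  set n := orderOf y with hn
  have hnu : φ (y ^ n) u = u := by rw [hn, pow_orderOf_eq_one, map_one]; rfl
  have hper : ∀ k, φ (y ^ (3 * k)) u = u := by
    intro k
    induction k with
    | zero => simp
    | succ k ih => rw [Nat.mul_succ, pow_add, map_mul, MulAut.mul_apply, hy3, ih]
  obtain ⟨k, hk⟩ : 3 ∣ n := by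
    rcases (show n % 3 = 0 ∨ n % 3 = 1 ∨ n % 3 = 2 by omega) with e | e | e
    · exact Nat.dvd_of_mod_eq_zero e
    · exfalso
      rw [show n = 1 + 3 * (n / 3) by omega, pow_add, map_mul, MulAut.mul_apply, hper, pow_one] at hnu
      exact hyne hnu
    · exfalso
      rw [show n = 2 + 3 * (n / 3) by omega, pow_add, map_mul, MulAut.mul_apply, hper] at hnu
      refine hyne ?_
      conv_lhs => rw [← hnu]
      rw [← MulAut.mul_apply, ← map_mul, ← pow_succ', hy3]
  have hk0 : 0 < k := by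
    have := orderOf_pos y
    omega
  have hb2 : b⁻¹ = b := inv_eq_of_mul_eq_one_right (hA'.sq b hb)
  have ha2 : a⁻¹ = a := inv_eq_of_mul_eq_one_right (hA.sq a ha)
  have hinv : a * y * a⁻¹ = y⁻¹ := by
    rw [hy, mul_inv_rev, hb2, ← mul_assoc, hA.sq a ha, one_mul]
  have h1 : y ^ k = 1 := hq.no3 a (y ^ k) (hA.sq a ha)
    (by rw [← pow_mul, mul_comm, ← hk, hn, pow_orderOf_eq_one])
    (by
      nth_rewrite 2 [← ha2]
      rw [← conj_pow, hinv, inv_pow])
  have h2 := orderOf_le_of_pow_eq_one hk0 h1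
  omega

end CfsgLib.AbelianOffender
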