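import Cfsg.Agent.AbelianOffender.Core
import Cfsg.Agent.Offender.S4Section
import Cfsg.Agent.Offender.SolvableFactor
import Cfsg.Agent.Constrained.HallHigman
import Cfsg.Agent.Cores.PCores
import Cfsg.Agent.LocalP.ThompsonJ
import Cfsg.Agent.Coprime.Stabilizer
import Cfsg.Agent.CharP.PCore
import Cfsg.Agent.PGroup.Commutator

/-!
Thompson factorization for 2-constrained groups without sections of the symmetric group of degree
four and with Sylow 2-subgroups of class at most two.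
-/

set_option autoImplicit false

namespace CfsgLib.AbelianOffender

open Cfsg
open scoped commutatorElement
open CfsgLib.Offender (fixedSub mem_fixedSub)

variable {G : Type*} [Group G] [Finite G]

/-- An element `τ` normalising `⟨r⟩` modulo a 2-group kernel. -/
theorem exists_normalizing {M : Type*} [Group M] [Finite M] {X : Type*} [Group X] (f : M →* X)
    (hker : IsPGroup 2 f.ker) {r t : M} (hr : r ^ 3 = 1) (hfr : f r ≠ 1)
    (hinv : f t * f r * (f t)⁻¹ = (f r)⁻¹) :
    ∃ τ : M, (∃ i : ℤ, f τ = f r ^ i * f t) ∧ τ * r * τ⁻¹ = r⁻¹ := by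
  haveI : Fact (Nat.Prime 3) := ⟨Nat.prime_three⟩
  set Mr := (Subgroup.zpowers (f r)).comap f with hMr
  have hfr3 : orderOf (f r) = 3 := orderOf_eq_prime (by rw [← map_pow, hr, map_one]) hfr
  obtain ⟨j, hj⟩ := IsPGroup.iff_card.mp hker
  have hle : f.ker ≤ Mr := Subgroup.ker_le_comap f _
  have hcard : Nat.card Mr = 2 ^ j * 3 := by
    have h1 := Subgroup.relIndex_mul_relIndex ⊥ f.ker Mr bot_le hle
    rw [Subgroup.relIndex_bot_left, Subgroup.relIndex_bot_left, Subgroup.relIndex_ker, hj] at h1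
    have h2 : Mr.map f = Subgroup.zpowers (f r) := le_antisymm (Subgroup.map_comap_le _ _)
      (Subgroup.zpowers_le.mpr ⟨r, Subgroup.mem_zpowers (f r), rfl⟩)
    rw [h2, Nat.card_zpowers, hfr3] at h1
    exact h1.symm
  set r' := t * r * t⁻¹ with hr'
  have hr'3 : r' ^ 3 = 1 := by rw [hr', conj_pow, hr, mul_one, mul_inv_cancel]
  have hrM : r ∈ Mr := Subgroup.mem_zpowers (f r)
  have hr'M : r' ∈ Mr := by
    show f r' ∈ Subgroup.zpowers (f r)
    rw [hr', map_mul, map_mul, map_inv, hinv]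
    exact inv_mem (Subgroup.mem_zpowers _)
  have key : ∀ x : Mr, x ^ 3 = 1 → x ≠ 1 → ∃ P : Sylow 3 Mr, (P : Subgroup Mr) = Subgroup.zpowers x := by
    intro x hx hx1
    have hox : orderOf x = 3 := orderOf_eq_prime hx hx1
    have hp : IsPGroup 3 (Subgroup.zpowers x) := IsPGroup.of_card (n := 1) (by
      rw [Nat.card_zpowers, hox, pow_one])
    obtain ⟨P, hP⟩ := hp.exists_le_sylow
    refine ⟨P, (Subgroup.eq_of_le_of_card_ge hP ?_).symm⟩
    obtain ⟨i, hi⟩ := IsPGroup.iff_card.mp P.isPGroup'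
    have h1 : 3 ^ i ∣ 2 ^ j * 3 := by rw [← hi, ← hcard]; exact Subgroup.card_subgroup_dvd_card _
    have h2 : 3 ^ i ∣ 3 := (Nat.Coprime.pow i j (by norm_num : Nat.Coprime 3 2)).dvd_of_dvd_mul_left h1
    rw [Nat.card_zpowers, hox, hi]
    exact Nat.le_of_dvd (by norm_num) h2
  have hfr' : f r' ≠ 1 := by
    rw [hr', map_mul, map_mul, map_inv, hinv]
    exact inv_ne_one.mpr hfr
  obtain ⟨P, hP⟩ := key ⟨r, hrM⟩ (Subtype.ext hr) (fun e => hfr (by
    rw [show r = 1 from congrArg Subtype.val e, map_one]))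
  obtain ⟨P', hP'⟩ := key ⟨r', hr'M⟩ (Subtype.ext hr'3) (fun e => hfr' (by
    rw [show r' = 1 from congrArg Subtype.val e, map_one]))
  obtain ⟨c, hc⟩ := MulAction.exists_smul_eq Mr P P'
  have hmem : (⟨r', hr'M⟩ : Mr) ∈ (P' : Subgroup Mr) := by rw [hP']; exact Subgroup.mem_zpowers _
  rw [← hc, Sylow.smul_def, Sylow.pointwise_smul_def, Subgroup.mem_pointwise_smul_iff_inv_smul_mem,
    hP] at hmem
  obtain ⟨k, hk⟩ := hmem
  have hk' : r ^ k = (c : M)⁻¹ * r' * (c : M) := by
    have := congrArg Subtype.val hk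
    simpa [MulAut.smul_def, MulAut.conj_symm_apply] using this
  obtain ⟨i, hi : f r ^ i = f c⟩ := c.2
  refine ⟨(c : M)⁻¹ * t, ⟨-i, by rw [map_mul, map_inv, ← hi, zpow_neg]⟩, ?_⟩
  have hconj : (c : M)⁻¹ * t * r * ((c : M)⁻¹ * t)⁻¹ = r ^ k := by rw [hk', hr']; group
  rw [hconj]
  have hfk : f r ^ k = (f r)⁻¹ := by
    rw [← map_zpow, hk', hr', map_mul, map_mul, map_mul, map_mul, map_inv, map_inv, hinv, ← hi]
    group
  have h3 : orderOf r = 3 := orderOf_eq_prime hr (fun e => hfr (by rw [e, map_one]))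
  rw [← zpow_neg_one] at hfk ⊢
  rw [zpow_eq_zpow_iff_modEq] at hfk ⊢
  rw [h3]; rwa [hfr3] at hfk

/-- The section: an element of order three inverted modulo a kernel, acting on an elementary
abelian subgroup. -/
theorem involves_perm_four' {r τ h : G} (hr : r ^ 3 = 1) (hτ : τ * r * τ⁻¹ = r⁻¹)
    (hh : h * h = 1) (hh1 : h ≠ 1) (hne : r * h * r⁻¹ ≠ h) (hcomm : Commute h (r * h * r⁻¹))
    (hy1 : r * (r * h * r⁻¹) * r⁻¹ = h * (r * h * r⁻¹)) (hτh : τ * h * τ⁻¹ = h) :
    Cfsg.Involves (Equiv.Perm (Fin 4)) G := by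
  set h1 := r * h * r⁻¹ with hh1def
  set H := Subgroup.closure ({r, τ, h} : Set G) with hH
  have hrH : r ∈ H := Subgroup.subset_closure (by simp)
  have hτH : τ ∈ H := Subgroup.subset_closure (by simp)
  have hhH : h ∈ H := Subgroup.subset_closure (by simp)
  set D := Subgroup.zpowers (⟨τ * τ, mul_mem hτH hτH⟩ : H) with hD
  have hcen : ∀ g ∈ H, g * (τ * τ) = τ * τ * g := by
    have : H ≤ Subgroup.centralizer ({τ * τ} : Set G) := by
      rw [hH, Subgroup.closure_le]
      intro g hg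
      rw [SetLike.mem_coe, Subgroup.mem_centralizer_singleton_iff]
      rcases hg with rfl | rfl | rfl
      · have h2 : τ * τ * g * (τ * τ)⁻¹ = g := by
          calc τ * τ * g * (τ * τ)⁻¹ = τ * (τ * g * τ⁻¹) * τ⁻¹ := by group
            _ = τ * g⁻¹ * τ⁻¹ := by rw [hτ]
            _ = (τ * g * τ⁻¹)⁻¹ := by group
            _ = g := by rw [hτ, inv_inv]
        exact (mul_inv_eq_iff_eq_mul.mp h2).symm
      · group
      · have h2 : τ * τ * g * (τ * τ)⁻¹ = g := by
          calc τ * τ * g * (τ * τ)⁻¹ = τ * (τ * g * τ⁻¹) * τ⁻¹ := by group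
            _ = g := by rw [hτh, hτh]
        exact (mul_inv_eq_iff_eq_mul.mp h2).symm
    exact fun g hg => Subgroup.mem_centralizer_singleton_iff.mp (this hg)
  haveI : D.Normal := by
    constructor
    intro d hd g
    obtain ⟨i, rfl⟩ := hd
    have hc : Commute g (⟨τ * τ, mul_mem hτH hτH⟩ : H) := Subtype.ext (hcen g g.2)
    show g * _ * g⁻¹ ∈ D
    rw [(hc.zpow_right i).eq, mul_inv_cancel_right]
    exact ⟨i, rfl⟩
  -- no element moved by `r` lies in `D`
  have hout : ∀ x : H, r * (x : G) * r⁻¹ ≠ x → x ∉ D := by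
    intro x hx hxD
    obtain ⟨i, rfl⟩ := hxD
    apply hx
    have hc : Commute r (τ * τ) := hcen r hrH
    show r * ((τ * τ) ^ i) * r⁻¹ = (τ * τ) ^ i
    rw [(hc.zpow_right i).eq, mul_inv_cancel_right]
  let π := QuotientGroup.mk' D
  have hπ : ∀ x y : H, r * ((x⁻¹ * y : H) : G) * r⁻¹ ≠ ((x⁻¹ * y : H) : G) → π x ≠ π y :=
    fun x y hxy e => hout _ hxy (QuotientGroup.eq.mp e)
  have h1H : h1 ∈ H := mul_mem (mul_mem hrH hhH) (inv_mem hrH)
  refine CfsgLib.Offender.involves_of_subgroup H (CfsgLib.Offender.involves_of_quotient D ?_)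
  refine CfsgLib.Offender.involves_perm_four (a := π ⟨τ, hτH⟩) (y := π ⟨r, hrH⟩) (h := π ⟨h, hhH⟩)
    (h1 := π ⟨h1, h1H⟩) ?_ ?_ ?_ ?_ ?_ ?_ ?_ ?_ ?_
  · rw [← map_mul]; exact (QuotientGroup.eq_one_iff _).mpr (Subgroup.mem_zpowers _)
  · rw [← map_mul, show (⟨h, hhH⟩ * ⟨h, hhH⟩ : H) = 1 from Subtype.ext hh, map_one]
  · intro e
    exact hout ⟨h, hhH⟩ hne ((QuotientGroup.eq_one_iff _).mp e)
  · simp only [← map_inv, ← map_mul]; rfl
  · refine fun e => hπ ⟨h1, h1H⟩ ⟨h, hhH⟩ ?_ e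
    show r * (h1⁻¹ * h) * r⁻¹ ≠ h1⁻¹ * h
    intro e'
    have e2 : r * (h1⁻¹ * h) * r⁻¹ = (h * h1)⁻¹ * h1 := by
      calc r * (h1⁻¹ * h) * r⁻¹ = (r * h1 * r⁻¹)⁻¹ * (r * h * r⁻¹) := by group
        _ = _ := by rw [hy1, ← hh1def]
    rw [e2, mul_inv_rev, inv_eq_of_mul_eq_one_right hh, mul_assoc] at e'
    have e3 : h * h1 = h := mul_left_cancel e'
    have e4 : h1 = 1 := mul_eq_left.mp e3
    rw [hh1def, mul_inv_eq_one, mul_eq_left] at e4
    exact hh1 e4
  · simp only [← map_mul]; exact congrArg π (Subtype.ext hcomm.eq)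
  · simp only [← map_inv, ← map_mul]; exact congrArg π (Subtype.ext hy1)
  · simp only [← map_inv, ← map_mul]; exact congrArg π (Subtype.ext hτh)
  · simp only [← map_inv, ← map_mul]; exact congrArg π (Subtype.ext hτ)

/-- Commutators inside a Sylow 2-subgroup lie in `O₂` and are central in the Sylow subgroup. -/
theorem commutator_central (hself : Subgroup.centralizer (pCore 2 G : Set G) ≤ pCore 2 G)
    (S : Sylow 2 G) (hcl : Subgroup.lowerCentralSeries (S : Subgroup G) 2 = ⊥) (P : Sylow 2 G)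
    {a b : G} (ha : a ∈ (P : Subgroup G)) (hb : b ∈ (P : Subgroup G)) :
    ⁅a, b⁆ ∈ pCore 2 G ∧ ∀ c ∈ (P : Subgroup G), c * ⁅a, b⁆ = ⁅a, b⁆ * c := by
  haveI : Fact (Nat.Prime 2) := ⟨Nat.prime_two⟩
  obtain ⟨g, rfl⟩ := MulAction.exists_smul_eq G S P
  have hmem : ∀ x ∈ ((g • S : Sylow 2 G) : Subgroup G), g⁻¹ * x * g ∈ (S : Subgroup G) := by
    intro x hx
    rw [Sylow.smul_def, Sylow.pointwise_smul_def, Subgroup.mem_pointwise_smul_iff_inv_smul_mem] at hx
    simpa [MulAut.smul_def, MulAut.conj_symm_apply] using hx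
  have key : ∀ c ∈ ((g • S : Sylow 2 G) : Subgroup G), c * ⁅a, b⁆ = ⁅a, b⁆ * c := by
    intro c hc
    have h1 : ⁅⁅g⁻¹ * a * g, g⁻¹ * b * g⁆, g⁻¹ * c * g⁆ ∈ Subgroup.lowerCentralSeries (S : Subgroup G) 2 := by
      rw [Subgroup.lowerCentralSeries_succ]
      refine Subgroup.commutator_mem_commutator ?_ (hmem c hc)
      rw [Subgroup.lowerCentralSeries_succ, Subgroup.lowerCentralSeries_zero]
      exact Subgroup.commutator_mem_commutator (hmem a ha) (hmem b hb)
    rw [hcl, Subgroup.mem_bot] at h1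
    have h2 : g⁻¹ * ⁅⁅a, b⁆, c⁆ * g = 1 := by
      rw [← h1]; simp only [commutatorElement_def]; group
    have h3 : ⁅⁅a, b⁆, c⁆ = 1 := by
      calc ⁅⁅a, b⁆, c⁆ = g * (g⁻¹ * ⁅⁅a, b⁆, c⁆ * g) * g⁻¹ := by group
        _ = 1 := by rw [h2, mul_one, mul_inv_cancel]
    exact (commutatorElement_eq_one_iff_mul_comm.mp h3).symm
  refine ⟨hself (Subgroup.mem_centralizer_iff.mpr fun q hq => key q ?_), key⟩
  exact CfsgLib.CharP.pCore_le_sylow _ hq

/-- The elementary abelian subgroups of largest order lie in `O₂`. -/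
theorem thompson_le_pCore (hS4 : ¬ Cfsg.Involves (Equiv.Perm (Fin 4)) G)
    (hself : Subgroup.centralizer (pCore 2 G : Set G) ≤ pCore 2 G) (S : Sylow 2 G)
    (hcl : Subgroup.lowerCentralSeries (S : Subgroup G) 2 = ⊥) :
    thompsonSubgroupOf 2 (S : Subgroup G) ≤ pCore 2 G := by
  classical
  haveI : Fact (Nat.Prime 2) := ⟨Nat.prime_two⟩
  set Q := pCore 2 G with hQdef
  haveI : Q.Normal := inferInstance
  have hQp : IsPGroup 2 Q := CfsgLib.Constrained.isPGroup_pCore
  have hQS : ∀ P : Sylow 2 G, Q ≤ (P : Subgroup G) := fun P => CfsgLib.CharP.pCore_le_sylow P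
  let Z : Subgroup G :=
    { carrier := {v | v ∈ Q ∧ (∀ q ∈ Q, v * q = q * v) ∧ v * v = 1}
      one_mem' := ⟨one_mem _, fun q _ => by simp, one_mul _⟩
      mul_mem' := by
        rintro a b ⟨ha, hac, ha2⟩ ⟨hb, hbc, hb2⟩
        refine ⟨mul_mem ha hb, fun q hq => ?_, ?_⟩
        · rw [mul_assoc, hbc q hq, ← mul_assoc, hac q hq, mul_assoc]
        · rw [show a * b * (a * b) = a * (b * a) * b by group, hbc a ha,
            show a * (a * b) * b = (a * a) * (b * b) by group, ha2, hb2, one_mul]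
      inv_mem' := by
        rintro a ⟨ha, hac, ha2⟩
        rw [inv_eq_of_mul_eq_one_right ha2]
        exact ⟨ha, hac, ha2⟩ }
  haveI hZn : Z.Normal := ⟨by
    rintro v ⟨hv, hvc, hv2⟩ g
    refine ⟨(inferInstance : Q.Normal).conj_mem v hv g, fun q hq => ?_, ?_⟩
    · have := hvc (g⁻¹ * q * g) (by simpa using (inferInstance : Q.Normal).conj_mem q hq g⁻¹)
      calc g * v * g⁻¹ * q = g * (v * (g⁻¹ * q * g)) * g⁻¹ := by group
        _ = g * ((g⁻¹ * q * g) * v) * g⁻¹ := by rw [this]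
        _ = _ := by group
    · rw [show g * v * g⁻¹ * (g * v * g⁻¹) = g * (v * v) * g⁻¹ by group, hv2, mul_one, mul_inv_cancel]⟩
  letI : CommGroup Z := { (inferInstance : Group Z) with
    mul_comm := fun a b => Subtype.ext (a.2.2.1 b b.2.1) }
  have hexp : ∀ v : Z, v * v = 1 := fun v => Subtype.ext v.2.2.2
  let π := QuotientGroup.mk' Z
  haveI : (Q.map π).Normal := Subgroup.Normal.map inferInstance π (QuotientGroup.mk'_surjective Z)
  set G1 : Subgroup G :=
    (Subgroup.centralizer ((Q.map π : Subgroup (G ⧸ Z)) : Set (G ⧸ Z))).comap π with hG1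
  haveI hG1n : G1.Normal := by rw [hG1]; infer_instance
  have hmemG1 : ∀ {g : G}, g ∈ G1 ↔ ∀ q ∈ Q, g * q * g⁻¹ * q⁻¹ ∈ Z := by
    intro g
    rw [hG1, Subgroup.mem_comap, Subgroup.mem_centralizer_iff]
    constructor
    · intro hg q hq
      refine (QuotientGroup.eq_one_iff _).mp ?_
      show π (g * q * g⁻¹ * q⁻¹) = 1
      rw [map_mul, map_mul, map_mul, map_inv, map_inv, ← hg (π q) (Subgroup.mem_map_of_mem π hq)]
      group
    · rintro hg _ ⟨q, hq, rfl⟩
      have h1 : π (g * q * g⁻¹ * q⁻¹) = 1 := (QuotientGroup.eq_one_iff _).mpr (hg q hq)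
      rw [map_mul, map_mul, map_mul, map_inv, map_inv, mul_inv_eq_one, mul_inv_eq_iff_eq_mul] at h1
      exact h1.symm
  set φ : G1 →* MulAut Z := (MulAut.conjNormal).comp G1.subtype with hφ
  have happ : ∀ (g : G1) (v : Z), ((φ g v : Z) : G) = (g : G) * v * (g : G)⁻¹ :=
    fun g v => MulAut.conjNormal_apply (g : G) v
  set f := φ.rangeRestrict with hf
  set ψ : φ.range →* MulAut Z := φ.range.subtype with hψ
  have hfs : Function.Surjective f := φ.rangeRestrict_surjective
  have hfapp : ∀ (g : G1) (v : Z), ψ (f g) v = φ g v := fun _ _ => rfl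
  -- the kernel is a 2-group
  have hker : IsPGroup 2 f.ker := by
    intro g
    obtain ⟨k, m, hm, hkm⟩ := Nat.exists_eq_two_pow_mul_odd (orderOf_pos g).ne'
    refine ⟨k, ?_⟩
    have hom : orderOf (g ^ 2 ^ k) ∣ m := orderOf_dvd_of_pow_eq_one (by
      rw [← pow_mul, ← hkm, pow_orderOf_eq_one])
    set x : G := (((g ^ 2 ^ k : f.ker) : G1) : G) with hx
    have hox : orderOf x ∣ m := by rw [hx, Subgroup.orderOf_coe, Subgroup.orderOf_coe]; exact hom
    have hxC : x ∈ Q := by
      refine hself (Subgroup.mem_centralizer_iff.mpr fun q hq => ?_)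
      have hz : x * q * x⁻¹ * q⁻¹ ∈ Z := hmemG1.mp ((g ^ 2 ^ k : f.ker) : G1).2 q hq
      have hfx : ψ (f ((g ^ 2 ^ k : f.ker) : G1)) (⟨_, hz⟩ : Z) = ⟨_, hz⟩ := by
        rw [MonoidHom.mem_ker.mp (g ^ 2 ^ k : f.ker).2, map_one]; rfl
      rw [hfapp] at hfx
      have h1 := congrArg Subtype.val hfx
      rw [happ] at h1
      refine (CfsgLib.Coprime.commute_of_commute_commutator_mem (mul_inv_eq_iff_eq_mul.mp h1) hz.1 ?_).symm
      obtain ⟨n, hn⟩ := IsPGroup.iff_card.mp hQp
      rw [hn]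
      exact ((Nat.coprime_two_right.mpr hm).coprime_dvd_left hox).pow_right n
    have hx1 : x = 1 := by
      obtain ⟨n, hn⟩ := hQp ⟨x, hxC⟩
      refine orderOf_eq_one_iff.mp (Nat.eq_one_of_dvd_coprimes
        ((Nat.coprime_two_left.mpr hm).pow_left n) ?_ hox)
      exact orderOf_dvd_of_pow_eq_one (congrArg Subtype.val hn)
    exact Subtype.ext (Subtype.ext hx1)
  -- 2-subgroups of the image lift to 2-subgroups of Sylow subgroups
  have hlift : ∀ T : Subgroup φ.range, IsPGroup 2 T →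
      ∃ P : Sylow 2 G, ∀ x ∈ T, ∃ g : G1, f g = x ∧ (g : G) ∈ (P : Subgroup G) := by
    intro T hT
    obtain ⟨P, hP⟩ := ((hT.comap_of_ker_isPGroup f hker).map G1.subtype).exists_le_sylow
    refine ⟨P, fun x hx => ?_⟩
    obtain ⟨g, rfl⟩ := hfs x
    exact ⟨g, rfl, hP ⟨g, hx, rfl⟩⟩
  have hquad : Quad ψ := by
    refine ⟨φ.range.subtype_injective, hexp, ?_, ?_, ?_⟩
    · intro T hT a ha b hb
      obtain ⟨P, hP⟩ := hlift T hT
      obtain ⟨a0, rfl, ha0⟩ := hP a ha
      obtain ⟨b0, rfl, hb0⟩ := hP b hb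
      rw [← commutatorElement_eq_one_iff_mul_comm, ← map_commutatorElement]
      apply φ.range.subtype_injective
      rw [map_one]
      refine MulEquiv.ext fun v => Subtype.ext ?_
      show ((φ ⁅a0, b0⁆ v : Z) : G) = v
      rw [happ]
      have h1 := (commutator_central hself S hcl P ha0 hb0).1
      have h2 := v.2.2.1 _ h1
      show ((⁅a0, b0⁆ : G1) : G) * v * ((⁅a0, b0⁆ : G1) : G)⁻¹ = v
      rw [show ((⁅a0, b0⁆ : G1) : G) = ⁅(a0 : G), (b0 : G)⁆ from map_commutatorElement G1.subtype a0 b0,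
        ← h2, mul_inv_cancel_right]
    · intro T hT a ha b hb v
      obtain ⟨P, hP⟩ := hlift T hT
      obtain ⟨a0, rfl, ha0⟩ := hP a ha
      obtain ⟨b0, rfl, hb0⟩ := hP b hb
      apply Subtype.ext
      rw [hfapp, hfapp, happ]
      have e : ((v * φ b0 v : Z) : G) = ⁅(b0 : G), (v : G)⁆ := by
        rw [mul_comm, Subgroup.coe_mul, happ, commutatorElement_def,
          inv_eq_of_mul_eq_one_right (congrArg Subtype.val (hexp v) : (v : G) * v = 1)]
      rw [e, (commutator_central hself S hcl P hb0 (hQS P v.2.1)).2 _ ha0, mul_inv_cancel_right]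
    · intro t y ht hy hty
      by_contra hy1
      obtain ⟨y0, rfl⟩ := hfs y
      obtain ⟨t0, rfl⟩ := hfs t
      -- an element of order three over `y`
      obtain ⟨j, hj⟩ : ∃ j : ℕ, (y0 ^ 3) ^ 2 ^ j = 1 := by
        obtain ⟨j, hj⟩ := hker ⟨y0 ^ 3, by rw [MonoidHom.mem_ker, map_pow, hy]⟩
        exact ⟨j, congrArg Subtype.val hj⟩
      set r := y0 ^ 2 ^ j with hr
      have hr3 : r ^ 3 = 1 := by rw [hr, ← pow_mul, mul_comm, pow_mul, hj]
      have hfr : f r ≠ 1 := by
        rw [hr, map_pow]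
        intro e
        apply hy1
        have h3 := pow_gcd_eq_one.mpr ⟨hy, e⟩
        rwa [(Nat.Coprime.pow_right j (by norm_num : Nat.Coprime 3 2)).gcd_eq_one, pow_one] at h3
      have hinv : f t0 * f r * (f t0)⁻¹ = (f r)⁻¹ := by
        rw [inv_eq_of_mul_eq_one_right ht, hr, map_pow]
        nth_rewrite 2 [← inv_eq_of_mul_eq_one_right ht]
        rw [← conj_pow, inv_eq_of_mul_eq_one_right ht, hty, inv_pow]
      obtain ⟨τ, ⟨i, hi⟩, hτ⟩ := exists_normalizing f hker hr3 hfr hinv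
      have hττ : f τ * f τ = 1 := by
        rw [hi]
        have e : f t0 * f r ^ i = (f r ^ i)⁻¹ * f t0 := by
          have := conj_zpow (i := i) (a := f t0) (b := f r)
          rw [hinv, inv_zpow] at this
          rw [this]; group
        rw [mul_assoc, ← mul_assoc (f t0), e, mul_assoc, ht, mul_one, mul_inv_cancel]
      set Y : MulAut Z := φ r with hY
      set T : MulAut Z := φ τ with hT
      have hY3 : ∀ v, Y (Y (Y v)) = v := fun v => by
        rw [← MulAut.mul_apply, ← MulAut.mul_apply, hY, ← map_mul, ← map_mul,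
          show r * r * r = r ^ 3 by rw [pow_succ, pow_two], hr3, map_one, MulAut.one_apply]
      have hT2 : ∀ v, T (T v) = v := fun v => by
        show ψ (f τ) (ψ (f τ) v) = v
        rw [← MulAut.mul_apply, ← map_mul, hττ, map_one]; rfl
      have hTY : ∀ v, T (Y v) = Y (Y (T v)) := fun v => by
        have h1 : τ * r = r * r * τ := by
          rw [show r * r = r⁻¹ by
            apply eq_inv_of_mul_eq_one_left
            rw [← hr3, pow_succ, pow_two], ← hτ, inv_mul_cancel_right]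
        rw [← MulAut.mul_apply, hT, hY, ← map_mul, h1, map_mul, map_mul]; rfl
      obtain ⟨u0, hu0⟩ : ∃ u0, Y u0 ≠ u0 := by
        by_contra hcon
        push Not at hcon
        exact hfr (φ.range.subtype_injective (MulEquiv.ext fun v => hcon v))
      obtain ⟨u, hu1, hun⟩ : ∃ u : Z, u ≠ 1 ∧ Y (Y u) = u * Y u := by
        refine ⟨u0 * Y u0, fun e => hu0 ?_, ?_⟩
        · rw [mul_eq_one_iff_eq_inv, inv_eq_of_mul_eq_one_right (hexp _)] at e
          exact e.symm
        · rw [map_mul, map_mul, hY3, ← mul_assoc, mul_assoc u0, hexp, mul_one, mul_comm]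
      obtain ⟨h, hh1, hhn, hTh⟩ : ∃ h : Z, h ≠ 1 ∧ Y (Y h) = h * Y h ∧ T h = h := by
        by_cases hc : u * T u = 1
        · refine ⟨u, hu1, hun, ?_⟩
          rw [mul_eq_one_iff_eq_inv, inv_eq_of_mul_eq_one_right (hexp _)] at hc
          exact hc.symm
        · refine ⟨u * T u, hc, ?_, by rw [map_mul, hT2, mul_comm]⟩
          have e1 : Y (Y (T u)) = T u * Y (T u) := by
            apply T.injective
            rw [← hTY, hT2, map_mul, hT2, hTY, hT2, hun, ← mul_assoc, hexp, one_mul]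
          simp only [map_mul]
          rw [hun, e1, mul_mul_mul_comm]
      apply hS4
      have hcoe : ∀ v : Z, ((Y v : Z) : G) = (r : G) * v * (r : G)⁻¹ := fun v => happ r v
      refine involves_perm_four' (r := (r : G)) (τ := (τ : G)) (h := (h : G)) (congrArg Subtype.val hr3)
        (congrArg Subtype.val hτ) h.2.2.2 (fun e => hh1 (Subtype.ext e)) ?_ ?_ ?_ ?_
      · rw [← hcoe]
        intro e
        apply hh1
        have e' : Y h = h := Subtype.ext e
        rw [e', e', hexp] at hhn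
        exact hhn
      · rw [← hcoe]; exact h.2.2.1 _ (Y h).2.1
      · rw [← hcoe, ← hcoe, hhn]; rfl
      · rw [← happ τ h]; exact congrArg Subtype.val hTh
  rw [CfsgLib.LocalP.thompsonSubgroupOf_eq_sSup]
  refine sSup_le fun A hA => ?_
  obtain ⟨hAc, hA2⟩ := CfsgLib.LocalP.isElementaryAbelian_iff.1 hA.2.1
  have hAG1 : A ≤ G1 := by
    intro a ha
    refine hmemG1.mpr fun q hq => ?_
    obtain ⟨hcQ, hcP⟩ := commutator_central hself S hcl S (hA.1 ha) (hQS S hq)
    rw [← commutatorElement_def]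
    refine ⟨hcQ, fun q' hq' => (hcP q' (hQS S hq')).symm, ?_⟩
    rw [← pow_two, ← CfsgLib.PGroup.commutatorElement_pow_left (hcP a (hA.1 ha)).symm 2, hA2 a ha,
      commutatorElement_one_left]
  set A1 := A.subgroupOf G1 with hA1
  set A' := A1.map f with hA'
  have hoff : Off ψ A' := by
    constructor
    · rintro _ ⟨a, ha, rfl⟩
      rw [← map_mul, show a * a = 1 from Subtype.ext (by
        show (a : G) * a = 1
        rw [← pow_two]; exact hA2 a ha), map_one]
    intro B' hB'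
    set B1 := A1 ⊓ B'.comap f with hB1
    set B := B1.map G1.subtype with hB
    have hBA : B ≤ A := by rintro _ ⟨b, hb, rfl⟩; exact hb.1
    have hBmap : B1.map f = B' := by
      refine le_antisymm (by rintro _ ⟨b, hb, rfl⟩; exact hb.2) fun x hx => ?_
      obtain ⟨a, ha, rfl⟩ := hB' hx
      exact ⟨a, ⟨ha, hx⟩, rfl⟩
    set D := A1 ⊓ f.ker with hD
    have hcard : ∀ {C : Subgroup G1}, D ≤ C → C ≤ A1 →
        Nat.card C = Nat.card D * Nat.card (C.map f) := by
      intro C hDC hCA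
      have h1 := Subgroup.relIndex_mul_relIndex ⊥ D C bot_le hDC
      rw [Subgroup.relIndex_bot_left, Subgroup.relIndex_bot_left] at h1
      have h2 : D.relIndex C = Nat.card (C.map f) := by
        rw [← Subgroup.relIndex_ker, show D.relIndex C = (D ⊓ C).relIndex C from
          (Subgroup.inf_relIndex_right D C).symm, ← Subgroup.inf_relIndex_right f.ker C]
        congr 1
        exact le_antisymm (inf_le_inf_right _ inf_le_right)
          (le_inf (le_inf (inf_le_right.trans hCA) inf_le_left) inf_le_right)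
      rw [← h1, h2]
    have hcA : Nat.card A = Nat.card D * Nat.card A' := by
      rw [← hcard inf_le_left le_rfl, hA1]
      exact (Nat.card_congr (Subgroup.subgroupOfEquivOfLe hAG1).toEquiv).symm
    have hcB : Nat.card B = Nat.card D * Nat.card B' := by
      rw [← hBmap, ← hcard (le_inf inf_le_left fun d hd => by
        show f d ∈ B'
        rw [MonoidHom.mem_ker.mp hd.2]; exact one_mem _) inf_le_left, hB, Subgroup.card_subtype]
    set C := (fixedSub ψ B').map Z.subtype with hC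
    have hBC : ∀ b ∈ B, ∀ c ∈ C, b * c = c * b := by
      rintro _ ⟨b, hb, rfl⟩ _ ⟨c, hc, rfl⟩
      have h1 : φ b c = c := hc (f b) hb.2
      have h2 := congrArg Subtype.val h1
      rw [happ] at h2
      exact mul_inv_eq_iff_eq_mul.mp h2
    have hCZ : C ≤ Z := Subgroup.map_subtype_le _
    have hel : IsElementaryAbelian 2 (B ⊔ C : Subgroup G) := CfsgLib.LocalP.isElementaryAbelian_sup
      (CfsgLib.LocalP.isElementaryAbelian_mono hA.2.1 hBA)
      (CfsgLib.LocalP.isElementaryAbelian_iff.2 ⟨fun a ha b hb => (hCZ ha).2.1 b (hCZ hb).1,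
        fun a ha => by rw [pow_two]; exact (hCZ ha).2.2⟩) hBC
    have h1 : Nat.card ↥(B ⊔ C) ≤ Nat.card A :=
      hA.2.2 _ (sup_le (hBA.trans hA.1) (fun c hc => hQS S (hCZ hc).1)) hel
    have h2 : Nat.card ↥(B ⊓ C) ≤ Nat.card (fixedSub ψ A') := by
      refine Nat.card_le_card_of_injective
        (fun x => ⟨⟨x.1, hCZ x.2.2⟩, ?_⟩ : ↥(B ⊓ C) → fixedSub ψ A') fun x x' hxx => ?_
      · rintro _ ⟨a, ha, rfl⟩
        apply Subtype.ext
        rw [hfapp, happ]
        show (a : G) * x.1 * (a : G)⁻¹ = x.1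
        rw [hAc a ha _ (hBA x.2.1), mul_inv_cancel_right]
      · exact Subtype.ext (congrArg (fun t : fixedSub ψ A' => ((t : Z) : G)) hxx)
    have h3 := CfsgLib.LocalP.card_mul_le_card_sup_mul_card_inf B C
    rw [hcB, hC, Subgroup.card_subtype] at h3
    refine Nat.le_of_mul_le_mul_left ?_ (Nat.card_pos (α := D))
    rw [← mul_assoc, ← mul_assoc, ← hcA]
    exact h3.trans (Nat.mul_le_mul h1 h2)
  have hcm : ∀ g : φ.range, Cm A' (cj g A') := fun g =>
    commute_conj hquad ⊤ A' le_top hoff g (Subgroup.mem_top g)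
  set N := Subgroup.normalClosure (A' : Set φ.range) with hN
  have hNc : ∀ x ∈ N, ∀ y ∈ N, x * y = y * x := by
    have hS : ∀ x ∈ Group.conjugatesOfSet (A' : Set φ.range),
        ∀ y ∈ Group.conjugatesOfSet (A' : Set φ.range), x * y = y * x := by
      intro x hx y hy
      obtain ⟨a, ha, hxa⟩ := Group.mem_conjugatesOfSet_iff.mp hx
      obtain ⟨b, hb, hyb⟩ := Group.mem_conjugatesOfSet_iff.mp hy
      obtain ⟨g, rfl⟩ := isConj_iff.mp hxa
      obtain ⟨k, rfl⟩ := isConj_iff.mp hyb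
      have := hcm (g⁻¹ * k) a ha _ (conj_mem_cj (g⁻¹ * k) hb)
      calc g * a * g⁻¹ * (k * b * k⁻¹) = g * (a * ((g⁻¹ * k) * b * (g⁻¹ * k)⁻¹)) * g⁻¹ := by group
        _ = g * (((g⁻¹ * k) * b * (g⁻¹ * k)⁻¹) * a) * g⁻¹ := by rw [this]
        _ = _ := by group
    have h1 : N ≤ Subgroup.centralizer (Group.conjugatesOfSet (A' : Set φ.range)) :=
      (Subgroup.closure_le _).mpr fun x hx => Subgroup.mem_centralizer_iff.mpr fun y hy => hS y hy x hx
    have h2 : N ≤ Subgroup.centralizer (N : Set φ.range) := by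
      rw [hN, Subgroup.normalClosure, Subgroup.centralizer_closure]; exact h1
    exact fun x hx y hy => Subgroup.mem_centralizer_iff.mp (h2 hy) x hx
  have hN2 : IsPGroup 2 N := by
    rintro ⟨x, hx⟩
    refine ⟨1, Subtype.ext ?_⟩
    show x ^ 2 ^ 1 = 1
    rw [pow_one]
    induction hx using Subgroup.closure_induction with
    | mem x hx =>
      obtain ⟨a, ha, hxa⟩ := Group.mem_conjugatesOfSet_iff.mp hx
      obtain ⟨g, rfl⟩ := isConj_iff.mp hxa
      rw [conj_pow, pow_two, hoff.sq a ha, mul_one, mul_inv_cancel]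
    | one => exact one_pow 2
    | mul x y hx' hy' hx hy => rw [Commute.mul_pow (hNc x hx' y hy'), hx, hy, one_mul]
    | inv x _ hx => rw [inv_pow, hx, inv_one]
  have h1 : A1 ≤ pCore 2 G1 := fun a ha => CfsgLib.Constrained.le_pCore
    (N := N.comap f) inferInstance (hN2.comap_of_ker_isPGroup f hker)
    (Subgroup.subset_normalClosure ⟨a, ha, rfl⟩)
  intro a ha
  exact CfsgLib.Cores.map_pCore_subnormal_le hG1n.isSubnormal ⟨⟨a, hAG1 ha⟩, h1 ha, rfl⟩

/-- Thompson factorization. -/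
theorem thompson_factorization (hcon : IsPConstrained 2 G)
    (hS4 : ¬ Cfsg.Involves (Equiv.Perm (Fin 4)) G) (S : Sylow 2 G)
    (hcl : Subgroup.lowerCentralSeries (S : Subgroup G) 2 = ⊥) :
    Subgroup.normalizer ((thompsonSubgroupOf 2 (S : Subgroup G)) : Set G) ⊔ pPrimeCore 2 G = ⊤ := by
  haveI : Fact (Nat.Prime 2) := ⟨Nat.prime_two⟩
  set O := pPrimeCore 2 G with hO
  haveI : O.Normal := inferInstance
  set f := QuotientGroup.mk' O with hf
  have hfs : Function.Surjective f := QuotientGroup.mk'_surjective O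
  set S' := S.mapSurjective hfs with hS'
  have hcoe : (S' : Subgroup (G ⧸ O)) = (S : Subgroup G).map f := Sylow.coe_mapSurjective hfs S
  have hcl' : Subgroup.lowerCentralSeries (S' : Subgroup (G ⧸ O)) 2 = ⊥ := by
    rw [hcoe, ← Subgroup.map_lowerCentralSeries, hcl, Subgroup.map_bot]
  have hself := CfsgLib.Constrained.isPConstrained_iff.mp hcon
  have hJQ := thompson_le_pCore (fun h => hS4 (CfsgLib.Offender.involves_of_quotient O h)) hself S' hcl'
  have hJn : (⊤ : Subgroup (G ⧸ O)) ≤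
      Subgroup.normalizer (thompsonSubgroupOf 2 (S' : Subgroup (G ⧸ O)) : Set (G ⧸ O)) := by
    rw [← CfsgLib.LocalP.thompsonSubgroupOf_eq_of_le (CfsgLib.CharP.pCore_le_sylow S') hJQ]
    exact le_trans (le_of_eq (Subgroup.normalizer_eq_top (H := pCore 2 (G ⧸ O))).symm)
      (CfsgLib.LocalP.le_normalizer_thompsonSubgroupOf _)
  have hinj : Function.Injective (f.comp (S : Subgroup G).subtype) := by
    rw [injective_iff_map_eq_one]
    intro x hx
    have hxO : (x : G) ∈ O := (QuotientGroup.eq_one_iff _).1 hx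
    obtain ⟨k, hk⟩ := IsPGroup.iff_orderOf.1 S.isPGroup' x
    refine orderOf_eq_one_iff.1 (Nat.eq_one_of_dvd_coprimes ?_ (dvd_of_eq hk)
      (Subgroup.orderOf_coe x ▸ O.orderOf_dvd_natCard hxO))
    exact ((Nat.Prime.coprime_iff_not_dvd Nat.prime_two).2
      (CfsgLib.Constrained.pPrimeCore_not_dvd (p := 2) (G := G))).pow_left k
  set J := thompsonSubgroupOf 2 (S : Subgroup G) with hJdef
  have hJmap : thompsonSubgroupOf 2 (S' : Subgroup (G ⧸ O)) = J.map f := by
    have h1 := CfsgLib.LocalP.thompsonSubgroupOf_map (p := 2) (f.comp (S : Subgroup G).subtype) hinj ⊤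
    rw [← Subgroup.map_map, ← MonoidHom.range_eq_map, Subgroup.range_subtype,
      CfsgLib.LocalP.thompsonSubgroupOf_top, ← Subgroup.map_map] at h1
    rw [hcoe]
    exact h1
  rw [hJmap] at hJn
  haveI : (J.map f).Normal := Subgroup.normalizer_eq_top_iff.mp (top_le_iff.mp hJn)
  set T : Subgroup G := (J.map f).comap f with hT
  haveI : T.Normal := by rw [hT]; infer_instance
  have hST : (S : Subgroup G) ⊓ T = J := by
    refine le_antisymm ?_ (le_inf (CfsgLib.LocalP.thompsonSubgroupOf_le _) (Subgroup.le_comap_map f J))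
    rintro x ⟨hxS, j, hj, hjx⟩
    have h1 : (⟨j, CfsgLib.LocalP.thompsonSubgroupOf_le _ hj⟩ : (S : Subgroup G)) = ⟨x, hxS⟩ := hinj hjx
    have e : j = x := congrArg Subtype.val h1
    exact e ▸ hj
  have h2 := CfsgLib.GlaubermanZJ.normalizer_inf_sup_eq_top S T
  rw [hST] at h2
  rw [eq_top_iff, ← h2]
  refine sup_le le_sup_left ?_
  rw [hT, Subgroup.comap_map_eq, hf, QuotientGroup.ker_mk']
  exact sup_le (Subgroup.le_normalizer.trans le_sup_left) le_sup_right

end CfsgLib.AbelianOffender
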